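import Cfsg.Agent.Lib.Helper95.Fix2.Defs

/-!
# Project FIX2 (S3390): package [ORB]
-/

set_option autoImplicit false

namespace Cfsg.Agent.Lib.Helper92.Fix2

open Cfsg.Agent.Lib.Helper95.Fix2

universe u v

/-- The stabilizer of a point in a subgroup, as a subgroup of the subgroup. -/
theorem stabilizer_subgroup_eq {G : Type u} [Group G] {Ω : Type v} [MulAction G Ω]
    (S : Subgroup G) (ω : Ω) :
    MulAction.stabilizer ↥S ω = (MulAction.stabilizer G ω).subgroupOf S := by
  ext x
  rw [Subgroup.mem_subgroupOf, MulAction.mem_stabilizer_iff, MulAction.mem_stabilizer_iff]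
  rfl

/-- [ORB] the orbits of `S` when it preserves `{α, β}`. -/
theorem pkgOrb : PkgOrb.{u, v} := by
  intro G _ _ Ω _ S α β t hT hL hpres
  classical
  -- the orbit of `α`
  have horb : MulAction.orbit ↥S α = {α, β} := by
    ext ω
    constructor
    · rintro ⟨s, rfl⟩
      rcases hpres (s : G) s.2 with h | h
      · exact Or.inl h
      · exact Or.inr h
    · rintro (h | h)
      · rw [h]
        exact MulAction.mem_orbit_self α
      · rw [Set.mem_singleton_iff] at h
        rw [h]
        exact ⟨⟨t, hL.tS⟩, hL.tα⟩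
  have hcard : (MulAction.orbit ↥S α).ncard = 2 := by
    rw [horb]
    exact Set.ncard_pair (Ne.symm hL.ne)
  have hidx : (S ⊓ MulAction.stabilizer G α).relIndex S = 2 := by
    rw [Subgroup.inf_relIndex_left, Subgroup.relIndex, ← stabilizer_subgroup_eq,
      MulAction.index_stabilizer, hcard]
  have hcardT : 2 ≤ Nat.card ↥(S ⊓ MulAction.stabilizer G α) := by
    have h1 : Nat.card ↥(S ⊓ MulAction.stabilizer G α) ≠ 1 := fun h =>
      hT (Subgroup.card_eq_one.mp h)
    have h0 : 0 < Nat.card ↥(S ⊓ MulAction.stabilizer G α) := Nat.card_pos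
    omega
  have hcardS : Nat.card ↥S = Nat.card ↥(S ⊓ MulAction.stabilizer G α) * 2 := by
    have h1 := Subgroup.card_mul_index ((S ⊓ MulAction.stabilizer G α).subgroupOf S)
    have h2 : ((S ⊓ MulAction.stabilizer G α).subgroupOf S).index = 2 := hidx
    rw [h2] at h1
    rw [← h1]
    congr 1
    exact Nat.card_congr (Subgroup.subgroupOfEquivOfLe
      (inf_le_left : S ⊓ MulAction.stabilizer G α ≤ S)).toEquiv
  refine ⟨hidx, by omega, ?_, ?_⟩
  · rw [Nat.card_coe_set_eq]
    exact hcard
  · intro hsemi ω' hω'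
    have hω'α : ω' ≠ α := by
      intro h
      apply hω'
      rw [h]
      exact MulAction.mem_orbit_self α
    have hω'β : ω' ≠ β := by
      intro h
      apply hω'
      rw [h, horb]
      exact Or.inr rfl
    have hstab : MulAction.stabilizer ↥S ω' = ⊥ := by
      rw [Subgroup.eq_bot_iff_forall]
      intro s hs
      have h1 : (s : G) • ω' = ω' := MulAction.mem_stabilizer_iff.mp hs
      exact Subtype.ext (hsemi ω' hω'α hω'β (s : G) s.2 h1)
    rw [Nat.card_coe_set_eq, ← MulAction.index_stabilizer, hstab, Subgroup.index_bot]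

end Cfsg.Agent.Lib.Helper92.Fix2
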